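import Mathlib
import Cfsg.Prelude.Def_Characters
import Cfsg.Agent.S0886
import Cfsg.Agent.Lib.Helper75.FullyRam
import Cfsg.Agent.Lib.Helper15.LinChar
import Cfsg.Agent.Lib.Helper25.IrrComp

set_option autoImplicit false

namespace Cfsg.Agent.Lib.Helper15

open scoped ComplexConjugate

/-- extension across a cyclic quotient, for a pair of subgroups `A ≤ B` of `G`: a hom from `B`
to a cyclic group with kernel `A`, and an irreducible character of `A` invariant in `B`. -/
theorem ext_of_cyclic_hom {G : Type*} [Group G] [Finite G] (A B : Subgroup G) (hAB : A ≤ B)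
    {Q : Type*} [Group Q] [IsCyclic Q] (f : B →* Q) (hker : ∀ b : B, f b = 1 ↔ (b : G) ∈ A)
    (ϑ : A → ℂ) (hϑ : Cfsg.IsIrrCharacter A ϑ)
    (hinv : ∀ (b : G) (_ : b ∈ B) (a : A) (h : b * a * b⁻¹ ∈ A), ϑ ⟨b * a * b⁻¹, h⟩ = ϑ a) :
    ∃ η : B → ℂ, Cfsg.IsIrrCharacter B η ∧ ∀ a : A, η ⟨a, hAB a.2⟩ = ϑ a := by
  have hcyc : IsCyclic (B ⧸ f.ker) :=
    isCyclic_of_injective (QuotientGroup.kerLift f) (QuotientGroup.kerLift_injective f)
  let e : f.ker ≃* A :=
    { toFun := fun n => ⟨(n : B), (hker n).mp n.2⟩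
      invFun := fun a => ⟨⟨a, hAB a.2⟩, (hker _).mpr a.2⟩
      left_inv := fun n => rfl
      right_inv := fun a => rfl
      map_mul' := fun x y => rfl }
  have hϑ' : Cfsg.IsIrrCharacter f.ker (fun n => ϑ (e n)) :=
    Cfsg.Agent.Lib.Helper25.isIrrCharacter_comp_mulEquiv e hϑ
  obtain ⟨η, hη, hηN⟩ := Cfsg.Agent.S0886.result f.ker hcyc (fun n => ϑ (e n)) hϑ' (by
    intro g n
    exact hinv g g.2 (e n) _)
  refine ⟨η, hη, fun a => ?_⟩
  exact hηN (e.symm a)

/-- geometric sum of a root of unity -/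
theorem fr_geom_root {w : ℂ} {n : ℕ} (hw : w ^ n = 1) :
    ∑ j ∈ Finset.range n, w ^ j = if w = 1 then (n : ℂ) else 0 := by
  split_ifs with h
  · subst h; simp
  · rw [geom_sum_eq h, hw, sub_self, zero_div]

/-- a faithful linear character of a finite cyclic group -/
theorem exists_faithful_hom {C : Type*} [Group C] [Finite C] (g : C)
    (hg : ∀ x, x ∈ Subgroup.zpowers g) :
    ∃ (lam : C →* ℂˣ) (ζ : ℂˣ), lam g = ζ ∧ (∀ x, lam x = ζ → x = g) ∧
      (∀ x, lam x = 1 → x = 1) ∧ (∀ x, (lam x) ^ (orderOf g) = 1) := by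
  have hn0 : orderOf g ≠ 0 := (orderOf_pos g).ne'
  have hprim := Complex.isPrimitiveRoot_exp (orderOf g) hn0
  obtain ⟨u, hu⟩ := hprim.isUnit hn0
  have hprim' : IsPrimitiveRoot u (orderOf g) := by
    rw [← IsPrimitiveRoot.coe_units_iff, hu]
    exact hprim
  have hord : orderOf u = orderOf g := hprim'.eq_orderOf.symm
  refine ⟨monoidHomOfForallMemZpowers hg (by rw [hord]), u,
    monoidHomOfForallMemZpowers_apply_gen hg _, ?_, ?_, ?_⟩
  · intro x hx
    obtain ⟨k, rfl⟩ := Subgroup.mem_zpowers_iff.mp (hg x)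
    rw [map_zpow, monoidHomOfForallMemZpowers_apply_gen] at hx
    have h1 : u ^ (k - 1) = 1 := by
      rw [zpow_sub, zpow_one, hx, mul_inv_cancel]
    have h2 : (orderOf u : ℤ) ∣ k - 1 := orderOf_dvd_iff_zpow_eq_one.mpr h1
    rw [hord] at h2
    have h3 : g ^ (k - 1) = 1 := orderOf_dvd_iff_zpow_eq_one.mp h2
    rw [zpow_sub, zpow_one, mul_inv_eq_one] at h3
    exact h3
  · intro x hx
    obtain ⟨k, rfl⟩ := Subgroup.mem_zpowers_iff.mp (hg x)
    rw [map_zpow, monoidHomOfForallMemZpowers_apply_gen] at hx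
    have h2 : (orderOf u : ℤ) ∣ k := orderOf_dvd_iff_zpow_eq_one.mpr hx
    rw [hord] at h2
    exact orderOf_dvd_iff_zpow_eq_one.mp h2
  · intro x
    rw [← map_pow]
    have : x ^ orderOf g = 1 := by
      rw [orderOf_eq_card_of_forall_mem_zpowers hg]
      exact pow_card_eq_one'
    rw [this, map_one]

end Cfsg.Agent.Lib.Helper15

namespace Cfsg.Agent.Lib.Helper15

open scoped ComplexConjugate

/-- a sum over a subgroup `B`, supported on a smaller subgroup `A` -/
theorem sum_subgroup_indicator {G : Type*} [Group G] (A B : Subgroup G) (hAB : A ≤ B)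
    [Fintype A] [Fintype B] [DecidablePred (· ∈ A)] (F : A → ℂ) :
    ∑ b : B, (if h : (b : G) ∈ A then F ⟨b, h⟩ else 0) = ∑ a : A, F a := by
  symm
  refine Finset.sum_bij_ne_zero (fun a _ _ => (⟨a, hAB a.2⟩ : B)) (fun _ _ _ => Finset.mem_univ _)
    ?_ ?_ ?_
  · intro a₁ _ _ a₂ _ _ h
    exact Subtype.ext (congrArg (fun b : B => (b : G)) h)
  · intro b _ hb
    by_cases h : (b : G) ∈ A
    · rw [dif_pos h] at hb
      exact ⟨⟨b, h⟩, Finset.mem_univ _, hb, rfl⟩
    · rw [dif_neg h] at hb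
      exact absurd rfl hb
  · intro a _ _
    rw [dif_pos a.2]

/-- a sum over `G` of a constant supported on a subgroup -/
theorem sum_ite_mem_subgroup {G : Type*} [Group G] [Fintype G] (D : Subgroup G)
    [DecidablePred (· ∈ D)] (c : ℂ) :
    ∑ x : G, (if x ∈ D then c else 0) = (Nat.card D : ℂ) * c := by
  rw [Finset.sum_ite, Finset.sum_const_zero, add_zero, Finset.sum_const, nsmul_eq_mul]
  congr 2
  rw [Nat.card_eq_fintype_card, Fintype.card_subtype]

/-- order of the full preimage of a subgroup of a quotient -/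
theorem card_comap_mk {G : Type*} [Group G] [Finite G] (Z : Subgroup G) [Z.Normal]
    (C : Subgroup (G ⧸ Z)) :
    Nat.card (C.comap (QuotientGroup.mk' Z)) = Nat.card C * Nat.card Z := by
  have h1 := Subgroup.card_mul_index (C.comap (QuotientGroup.mk' Z))
  have h2 : (C.comap (QuotientGroup.mk' Z)).index = C.index :=
    Subgroup.index_comap_of_surjective C (QuotientGroup.mk'_surjective Z)
  have h3 := Subgroup.card_mul_index C
  have h4 := Subgroup.card_eq_card_quotient_mul_card_subgroup Z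
  rw [h2] at h1
  have h5 : 0 < C.index := Nat.pos_of_ne_zero Subgroup.index_ne_zero_of_finite
  have : Nat.card (C.comap (QuotientGroup.mk' Z)) * C.index
      = (Nat.card C * Nat.card Z) * C.index := by
    rw [h1, h4, ← h3]; ring
  exact Nat.eq_of_mul_eq_mul_right h5 this

end Cfsg.Agent.Lib.Helper15
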