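import Mathlib
import Cfsg.Prelude.Def_Characters
import Cfsg.Agent.Lib.Helper15.Mackey
import Cfsg.Agent.S0887

/-!
# The counting core of Isaacs' Theorem 11.32

`χ = ϑ^G` with `ϑ ∈ Irr(H)`, `L ⊴ G`, `L ≤ H`, `ϑ_L` irreducible.

* `sq_eq_index_of_inf_eq`: if `K H = G`, `K ∩ H = L`, `χ_L = e φ'` and `χ_K = a η` are
  homogeneous, then `a² = |G : H|`.
* `normal_inter_of_coprime`: if moreover `K ≤ M`, `χ_M = b ζ` is homogeneous and `|G : H|` is
  coprime to `|M : K|`, then `M ∩ H` is normal in `M`.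
-/

set_option autoImplicit false

namespace Cfsg.Agent.Lib.Helper15

open scoped ComplexConjugate

universe u

/-- Transport of the inner product along a bijection. -/
theorem classInner_comp_equiv' {D₁ D₂ : Type*} [Group D₁] [Fintype D₁] [Group D₂] [Fintype D₂]
    (σ : D₁ ≃ D₂) (f h : D₂ → ℂ) :
    Cfsg.classInner (fun x => f (σ x)) (fun x => h (σ x)) = Cfsg.classInner f h := by
  unfold Cfsg.classInner
  rw [Nat.card_congr σ]
  congr 1
  exact Fintype.sum_equiv σ _ _ (fun _ => rfl)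

/-- The norm of a multiple of an irreducible character. -/
theorem classInner_smul_smul_self {D : Type*} [Group D] [Fintype D] {ζ : D → ℂ}
    (hζ : Cfsg.IsIrrCharacter D ζ) (b : ℕ) :
    Cfsg.classInner ((b : ℂ) • ζ) ((b : ℂ) • ζ) = (b : ℂ) ^ 2 := by
  rw [Cfsg.Agent.Lib.Helper80.classInner_smul_left, Cfsg.Agent.Lib.Helper80.classInner_smul_right,
    Cfsg.Agent.Lib.Helper80.classInner_self hζ, Complex.conj_natCast]
  ring

variable {G : Type u} [Group G] [Fintype G]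

/-- If `K H = G`, `K ∩ H = L`, `ϑ_L` is irreducible and `(ϑ^G)_L`, `(ϑ^G)_K` are homogeneous, the
multiplicity `a` of `(ϑ^G)_K` satisfies `a² = |G : H|`. -/
theorem sq_eq_index_of_inf_eq (L H K : Subgroup G) (hLH : L ≤ H) (hLK : L ≤ K)
    (hKH : K ⊓ H = L) (hsurj : ∀ g : G, ∃ k ∈ K, ∃ h ∈ H, g = k * h) (ϑ : H → ℂ)
    (hϑ : Cfsg.IsIrrCharacter H ϑ)
    (hϑL : Cfsg.IsIrrCharacter L (fun x : L => ϑ ⟨(x : G), hLH x.2⟩))
    (φ' : L → ℂ) (e : ℕ) (hφ' : Cfsg.IsIrrCharacter L φ')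
    (hL : (fun n : L => Cfsg.indFun H ϑ n) = (e : ℂ) • φ')
    (η : K → ℂ) (a : ℕ) (hη : Cfsg.IsIrrCharacter K η)
    (hK : (fun k : K => Cfsg.indFun H ϑ k) = (a : ℂ) • η) :
    a ^ 2 = H.index := by
  classical
  have : Fintype K := Fintype.ofFinite K
  have : Fintype L := Fintype.ofFinite L
  have : Fintype H := Fintype.ofFinite H
  have hϑc := Cfsg.Agent.Lib.Helper80.isCharacter_of_isIrrCharacter hϑ
  have hϑcl := Cfsg.Agent.Lib.Helper80.isClassFunction_of_isCharacter hϑc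
  have hφ1 : ϑ 1 ≠ 0 := Cfsg.Agent.Lib.Helper80.char_one_ne_zero hϑ
  have hχ1 : Cfsg.indFun H ϑ 1 = (H.index : ℂ) * ϑ 1 := Cfsg.Agent.Lib.Helper80.indFun_one H ϑ
  have hidx : (H.index : ℂ) ≠ 0 := by exact_mod_cast Subgroup.index_ne_zero_of_finite
  have hK1 : Cfsg.indFun H ϑ 1 = (a : ℂ) * η 1 := by
    have := congrFun hK 1
    simpa using this
  have hL1 : Cfsg.indFun H ϑ 1 = (e : ℂ) * φ' 1 := by
    have := congrFun hL 1
    simpa using this
  have ha0 : (a : ℂ) ≠ 0 := by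
    intro h0
    rw [h0, zero_mul, hχ1] at hK1
    exact (mul_ne_zero hidx hφ1) hK1
  -- Mackey
  have hsurj' : ∀ g : G, ∃ u : K, ∃ h ∈ H, g = K.subtype u * h := by
    intro g
    obtain ⟨k, hk, h, hh, rfl⟩ := hsurj g
    exact ⟨⟨k, hk⟩, h, hh, rfl⟩
  have : Fintype (H.comap K.subtype) := Fintype.ofFinite _
  have hmk : (fun k : K => Cfsg.indFun H ϑ k) =
      Cfsg.indFun (H.comap K.subtype) (fun y => ϑ ⟨K.subtype y, y.2⟩) :=
    funext fun x => indFun_comp_hom K.subtype H hsurj' ϑ hϑcl x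
  have hcl : Cfsg.IsClassFunction K (fun k : K => Cfsg.indFun H ϑ k) := by
    rw [hmk]
    exact Cfsg.Agent.Lib.Helper80.isClassFunction_indFun _ _
  have hfrob := Cfsg.Agent.Lib.Helper80.frobenius_reciprocity (H.comap K.subtype)
    (fun y => ϑ ⟨K.subtype y, y.2⟩) (fun k : K => Cfsg.indFun H ϑ k) hcl
  rw [← hmk] at hfrob
  have hlhs : Cfsg.classInner (fun k : K => Cfsg.indFun H ϑ k) (fun k : K => Cfsg.indFun H ϑ k) =
      (a : ℂ) ^ 2 := by
    rw [hK]
    exact classInner_smul_smul_self hη a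
  let σ : (H.comap K.subtype) ≃ L :=
    { toFun := fun x => ⟨((x : K) : G), by rw [← hKH]; exact ⟨x.1.2, x.2⟩⟩
      invFun := fun l => ⟨⟨(l : G), hLK l.2⟩, hLH l.2⟩
      left_inv := fun x => rfl
      right_inv := fun l => rfl }
  have hrhs : Cfsg.classInner (fun y : H.comap K.subtype => ϑ ⟨K.subtype y, y.2⟩)
      (fun h : H.comap K.subtype => (fun k : K => Cfsg.indFun H ϑ k) h) =
      Cfsg.classInner (fun x : L => ϑ ⟨(x : G), hLH x.2⟩) (fun n : L => Cfsg.indFun H ϑ n) :=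
    classInner_comp_equiv' σ (fun x : L => ϑ ⟨(x : G), hLH x.2⟩)
      (fun n : L => Cfsg.indFun H ϑ n)
  rw [hlhs, hrhs, hL, Cfsg.Agent.Lib.Helper80.classInner_smul_right, Complex.conj_natCast,
    Cfsg.Agent.Lib.Helper80.classInner_irr_fun hϑL hφ'] at hfrob
  by_cases hφφ : (fun x : L => ϑ ⟨(x : G), hLH x.2⟩) = φ'
  · rw [if_pos hφφ, mul_one] at hfrob
    have h1 : φ' 1 = ϑ 1 := by
      rw [← hφφ]
      rfl
    rw [h1, hχ1] at hL1
    have h2 : (H.index : ℂ) = (e : ℂ) := mul_right_cancel₀ hφ1 hL1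
    have h3 : ((a ^ 2 : ℕ) : ℂ) = (H.index : ℂ) := by
      rw [h2, ← hfrob]
      push_cast
      ring
    exact_mod_cast h3
  · rw [if_neg hφφ, mul_zero] at hfrob
    exact absurd (pow_eq_zero_iff (two_ne_zero)|>.mp hfrob) ha0

/-- If `K H = G`, `K ≤ M`, `L ≤ M`, the restrictions of `χ = ϑ^G` to `K` and `M` are homogeneous,
`a² = |G : H|` for the multiplicity `a` on `K`, and `|G : H|` is coprime to `|M : K|`, then
`M ∩ H` is normal in `M`. -/
theorem normal_inter_of_coprime (L H K M : Subgroup G) [hLn : L.Normal] [hKn : K.Normal]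
    (hLH : L ≤ H) (hLM : L ≤ M) (hKM : K ≤ M)
    (hsurj : ∀ g : G, ∃ k ∈ K, ∃ h ∈ H, g = k * h) (ϑ : H → ℂ)
    (hϑ : Cfsg.IsIrrCharacter H ϑ)
    (hϑL : Cfsg.IsIrrCharacter L (fun x : L => ϑ ⟨(x : G), hLH x.2⟩))
    (η : K → ℂ) (a : ℕ) (hη : Cfsg.IsIrrCharacter K η)
    (hK : (fun k : K => Cfsg.indFun H ϑ k) = (a : ℂ) • η) (ha : a ^ 2 = H.index)
    (ζ : M → ℂ) (b : ℕ) (hζ : Cfsg.IsIrrCharacter M ζ)
    (hM : (fun m : M => Cfsg.indFun H ϑ m) = (b : ℂ) • ζ)
    (hcop : Nat.Coprime H.index (K.relIndex M)) :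
    ∀ m ∈ M, ∀ y ∈ M, y ∈ H → m * y * m⁻¹ ∈ H := by
  classical
  have : Fintype M := Fintype.ofFinite M
  have : Fintype K := Fintype.ofFinite K
  have : Fintype L := Fintype.ofFinite L
  have : Fintype H := Fintype.ofFinite H
  have hϑc := Cfsg.Agent.Lib.Helper80.isCharacter_of_isIrrCharacter hϑ
  have hϑcl := Cfsg.Agent.Lib.Helper80.isClassFunction_of_isCharacter hϑc
  have hϑ1 : ϑ 1 ≠ 0 := Cfsg.Agent.Lib.Helper80.char_one_ne_zero hϑ
  have hχ1 : Cfsg.indFun H ϑ 1 = (H.index : ℂ) * ϑ 1 := Cfsg.Agent.Lib.Helper80.indFun_one H ϑ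
  have hidx0 : H.index ≠ 0 := Subgroup.index_ne_zero_of_finite
  have hidx : (H.index : ℂ) ≠ 0 := by exact_mod_cast hidx0
  have ha0 : a ≠ 0 := by
    rintro rfl
    simp at ha
    exact hidx0 ha.symm
  have hM1 : Cfsg.indFun H ϑ 1 = (b : ℂ) * ζ 1 := by
    have := congrFun hM 1
    simpa using this
  have hb0 : b ≠ 0 := by
    rintro rfl
    rw [Nat.cast_zero, zero_mul, hχ1] at hM1
    exact (mul_ne_zero hidx hϑ1) hM1
  -- the subgroup `K` inside `M`
  let N : Subgroup M := K.subgroupOf M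
  have : Fintype N := Fintype.ofFinite N
  have hNn : N.Normal := Subgroup.normal_subgroupOf
  let σ : N ≃* K := Subgroup.subgroupOfEquivOfLe hKM
  have hσ : ∀ n : N, ((σ n : K) : G) = ((n : M) : G) := fun n => rfl
  have hη' : Cfsg.IsIrrCharacter N (fun n => η (σ n)) :=
    Cfsg.Agent.Lib.Helper80.isIrrCharacter_comp_mulEquiv σ hη
  have hrel : ∀ n : N, (b : ℂ) * ζ n = (a : ℂ) * η (σ n) := by
    intro n
    have h1 := congrFun hM (n : M)
    have h2 := congrFun hK (σ n)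
    simp only [Pi.smul_apply, smul_eq_mul] at h1 h2
    rw [← h1, ← h2, hσ]
  have hb0' : (b : ℂ) ≠ 0 := by exact_mod_cast hb0
  have ha0' : (a : ℂ) ≠ 0 := by exact_mod_cast ha0
  have hres : (fun n : N => ζ n) = ((a : ℂ) / b) • (fun n => η (σ n)) := by
    funext n
    simp only [Pi.smul_apply, smul_eq_mul]
    field_simp
    linear_combination hrel n
  have hcon : Cfsg.classInner (fun n : N => ζ n) (fun n => η (σ n)) ≠ 0 := by
    rw [hres, Cfsg.Agent.Lib.Helper80.classInner_smul_left,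
      Cfsg.Agent.Lib.Helper80.classInner_self hη', mul_one]
    exact div_ne_zero ha0' hb0'
  have hζc := Cfsg.Agent.Lib.Helper80.isCharacter_of_isIrrCharacter hζ
  have hη'c := Cfsg.Agent.Lib.Helper80.isCharacter_of_isIrrCharacter hη'
  obtain ⟨hdvd, hquot⟩ := Cfsg.Agent.S0887.result N ζ hζ (fun n => η (σ n)) hη' hcon
    (Cfsg.charDegree ζ) (Cfsg.charDegree (fun n : N => η (σ n)))
    (Cfsg.Agent.Lib.Helper80.char_one_eq_charDegree hζc)
    (Cfsg.Agent.Lib.Helper80.char_one_eq_charDegree (χ := fun n : N => η (σ n)) hη'c)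
  have hdpos : 0 < Cfsg.charDegree (fun n : N => η (σ n)) :=
    Cfsg.Agent.Lib.Helper80.charDegree_pos hη'
  obtain ⟨m, hm⟩ := hdvd
  have hrel1 : b * Cfsg.charDegree ζ = a * Cfsg.charDegree (fun n : N => η (σ n)) := by
    have h1 := hrel 1
    have h2 : ζ ((1 : N) : M) = (Cfsg.charDegree ζ : ℂ) := by
      rw [← Cfsg.Agent.Lib.Helper80.char_one_eq_charDegree hζc]
      rfl
    have h3 : η (σ 1) = (Cfsg.charDegree (fun n : N => η (σ n)) : ℂ) :=
      Cfsg.Agent.Lib.Helper80.char_one_eq_charDegree (χ := fun n : N => η (σ n)) hη'c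
    rw [h2, h3] at h1
    exact_mod_cast h1
  have hbm : b * m = a := by
    rw [hm] at hrel1
    have : (b * m) * Cfsg.charDegree (fun n : N => η (σ n)) =
        a * Cfsg.charDegree (fun n : N => η (σ n)) := by
      rw [← hrel1]
      ring
    exact Nat.eq_of_mul_eq_mul_right hdpos this
  have hm1 : m = 1 := by
    have hq : Cfsg.charDegree ζ / Cfsg.charDegree (fun n : N => η (σ n)) = m := by
      rw [hm]
      exact Nat.mul_div_cancel_left m hdpos
    rw [hq] at hquot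
    have hmH : m ∣ H.index := by
      rw [← ha, ← hbm]
      exact dvd_pow (Dvd.intro_left b rfl) two_ne_zero
    have hmK : m ∣ K.relIndex M := hquot
    have := Nat.dvd_gcd hmH hmK
    rw [hcop] at this
    exact Nat.dvd_one.mp this
  have hb2 : b ^ 2 = H.index := by
    rw [← ha, ← hbm, hm1, mul_one]
  -- Mackey for `M`
  have hsurjM : ∀ g : G, ∃ u : M, ∃ h ∈ H, g = M.subtype u * h := by
    intro g
    obtain ⟨k, hk, h, hh, rfl⟩ := hsurj g
    exact ⟨⟨k, hKM hk⟩, h, hh, rfl⟩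
  have : Fintype (H.comap M.subtype) := Fintype.ofFinite _
  have hmk : (fun x : M => Cfsg.indFun H ϑ x) =
      Cfsg.indFun (H.comap M.subtype) (fun y => ϑ ⟨M.subtype y, y.2⟩) :=
    funext fun x => indFun_comp_hom M.subtype H hsurjM ϑ hϑcl x
  have hL'n : (L.comap M.subtype).Normal := hLn.comap M.subtype
  have hLQ : L.comap M.subtype ≤ H.comap M.subtype := Subgroup.comap_mono hLH
  have hξc : Cfsg.IsCharacter (H.comap M.subtype) (fun y => ϑ ⟨M.subtype y, y.2⟩) :=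
    Cfsg.Agent.Lib.Helper80.isCharacter_comp
      ((M.subtype.comp (H.comap M.subtype).subtype).codRestrict H (fun y => y.2)) hϑc
  let τ : (L.comap M.subtype) ≃* L := Subgroup.subgroupOfEquivOfLe hLM
  have hξL : Cfsg.IsIrrCharacter (L.comap M.subtype)
      (fun x : L.comap M.subtype => (fun y : H.comap M.subtype => ϑ ⟨M.subtype y, y.2⟩)
        ⟨x, hLQ x.2⟩) :=
    Cfsg.Agent.Lib.Helper80.isIrrCharacter_comp_mulEquiv τ hϑL
  have hnorm : Cfsg.classInner
      (Cfsg.indFun (H.comap M.subtype) (fun y => ϑ ⟨M.subtype y, y.2⟩))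
      (Cfsg.indFun (H.comap M.subtype) (fun y => ϑ ⟨M.subtype y, y.2⟩)) =
      ((H.comap M.subtype).index : ℂ) := by
    rw [← hmk, hM, classInner_smul_smul_self hζ, index_comap_eq M.subtype H hsurjM]
    exact_mod_cast hb2
  have hnormal := normal_of_ind_norm (H.comap M.subtype) (L.comap M.subtype) hLQ
    (fun y => ϑ ⟨M.subtype y, y.2⟩) hξc hξL hnorm
  intro m hm y hy hyH
  have h1 := hnormal ⟨m, hm⟩ ⟨y, hy⟩ (Subgroup.mem_comap.mpr hyH)
  have h2 := Subgroup.mem_comap.mp h1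
  simpa using h2

end Cfsg.Agent.Lib.Helper15
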