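import Mathlib
import Cfsg.Prelude.Def_Characters
import Cfsg.Agent.Lib.Helper15.FRBasic
import Cfsg.Agent.Lib.Helper15.QPCore
import Cfsg.Agent.Lib.Helper80.CharOps
import Cfsg.Agent.Lib.Helper1.Tools

set_option autoImplicit false
set_option linter.unusedSectionVars false

namespace Cfsg.Agent.Lib.Helper15

open scoped ComplexConjugate
open Cfsg.Agent.Lib

/-- arithmetic: `q ∣ k²` from `k p^j = e m`, `e² = p^r q`, `(q,p) = 1` -/
theorem q_dvd_sq {p q e k m j r : ℕ} (hp : p.Prime) (hcop : Nat.Coprime q p)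
    (he : e ^ 2 = p ^ r * q) (h : k * p ^ j = e * m) : q ∣ k ^ 2 := by
  have h1 : k ^ 2 * p ^ (2 * j) = p ^ r * q * m ^ 2 := by
    have : (k * p ^ j) ^ 2 = (e * m) ^ 2 := by rw [h]
    rw [mul_pow, mul_pow, he, ← pow_mul, mul_comm j 2] at this
    exact this
  have h2 : q ∣ k ^ 2 * p ^ (2 * j) := by
    rw [h1]
    exact ⟨p ^ r * m ^ 2, by ring⟩
  exact (Nat.Coprime.pow_right (2 * j) hcop).dvd_of_dvd_mul_right h2

section FR

variable {H : Type*} [Group H] [Fintype H] (Z : Subgroup H) [hZn : Z.Normal] [Fintype Z]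
  {χ : H → ℂ} {θ : Z → ℂ} (e : ℕ)

/-- the inner product of `χ|_U` with anything reduces to a sum over `Z` -/
theorem fr_inner_res (hvan : ∀ h : H, h ∉ Z → χ h = 0) (U : Subgroup H) [Fintype U]
    (hZU : Z ≤ U) (ξ : U → ℂ) :
    Cfsg.classInner (fun u : U => χ u) ξ * (Nat.card U : ℂ)
      = ∑ z : Z, χ z * conj (ξ ⟨z, hZU z.2⟩) := by
  classical
  unfold Cfsg.classInner
  have hne : (Nat.card U : ℂ) ≠ 0 := by exact_mod_cast (Nat.card_pos (α := U)).ne'
  rw [mul_comm, ← mul_assoc, mul_inv_cancel₀ hne, one_mul,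
    ← sum_subgroup_indicator Z U hZU (fun z => χ z * conj (ξ ⟨z, hZU z.2⟩))]
  refine Finset.sum_congr rfl (fun u _ => ?_)
  by_cases hu : (u : H) ∈ Z
  · rw [dif_pos hu]
  · rw [dif_neg hu]
    show χ (u : H) * _ = 0
    rw [hvan u hu, zero_mul]

theorem fr_sum_theta (hθ : Cfsg.IsIrrCharacter Z θ) :
    ∑ z : Z, θ z * conj (θ z) = (Nat.card Z : ℂ) := by
  have h1 := Helper3.classInner_irr_self hθ
  unfold Cfsg.classInner at h1
  have hne : (Nat.card Z : ℂ) ≠ 0 := by exact_mod_cast (Nat.card_pos (α := Z)).ne'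
  field_simp at h1
  exact h1

variable (hχ : Cfsg.IsIrrCharacter H χ) (hθ : Cfsg.IsIrrCharacter Z θ) (he : e ^ 2 = Z.index)
  (hres : ∀ z : Z, χ z = (e : ℂ) * θ z)

include hχ hθ he hres

theorem fr_vanish : ∀ h : H, h ∉ Z → χ h = 0 :=
  Helper75.vanish_off_of_sq_eq Z hχ hθ e (funext fun z => by simpa using hres z) he

/-- `[χ_U, χ_U] = |H : U|` -/
theorem fr_norm_res (U : Subgroup H) [Fintype U] (hZU : Z ≤ U) :
    Cfsg.classInner (fun u : U => χ u) (fun u : U => χ u) = (U.index : ℂ) := by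
  have h1 := fr_inner_res Z (fr_vanish Z e hχ hθ he hres) U hZU (fun u : U => χ u)
  have h2 : ∑ z : Z, χ z * conj (χ z) = (e : ℂ) ^ 2 * (Nat.card Z : ℂ) := by
    rw [← fr_sum_theta Z hθ, Finset.mul_sum]
    refine Finset.sum_congr rfl (fun z _ => ?_)
    rw [hres z, map_mul, Complex.conj_natCast]
    ring
  rw [h2] at h1
  have hne : (Nat.card U : ℂ) ≠ 0 := by exact_mod_cast (Nat.card_pos (α := U)).ne'
  have h3 : (e : ℂ) ^ 2 * (Nat.card Z : ℂ) = (U.index : ℂ) * (Nat.card U : ℂ) := by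
    have h4 : e ^ 2 * Nat.card Z = U.index * Nat.card U := by
      rw [he, Subgroup.index_mul_card, Subgroup.index_mul_card]
    exact_mod_cast h4
  rw [h3] at h1
  exact mul_right_cancel₀ hne h1

/-- `k |U : Z| = e m` for the multiplicity `k` of an irreducible `ξ` of `U ≥ Z` in `χ|_U` -/
theorem fr_dvd (U : Subgroup H) [Fintype U] (hZU : Z ≤ U) {ξ : U → ℂ}
    (hξ : Cfsg.IsIrrCharacter U ξ) (k : ℕ)
    (hk : Cfsg.classInner (fun u : U => χ u) ξ = k) : ∃ m : ℕ, k * Z.relIndex U = e * m := by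
  have hξZ : Cfsg.IsCharacter Z (fun z : Z => ξ ⟨z, hZU z.2⟩) :=
    Helper25.isCharacter_comp_monoidHom (Subgroup.inclusion hZU) (Helper3.isCharacter_of_irr hξ)
  obtain ⟨m, hm⟩ := Helper75.classInner_irr_char_nat hξZ hθ
  refine ⟨m, ?_⟩
  have h1 := fr_inner_res Z (fr_vanish Z e hχ hθ he hres) U hZU ξ
  have h2 : ∑ z : Z, χ z * conj (ξ ⟨z, hZU z.2⟩) = (e : ℂ) * (Nat.card Z : ℂ) * (m : ℂ) := by
    unfold Cfsg.classInner at hm
    have hne : (Nat.card Z : ℂ) ≠ 0 := by exact_mod_cast (Nat.card_pos (α := Z)).ne'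
    have h3 : ∑ z : Z, θ z * conj (ξ ⟨z, hZU z.2⟩) = (Nat.card Z : ℂ) * (m : ℂ) := by
      rw [← hm, ← mul_assoc, mul_inv_cancel₀ hne, one_mul]
    rw [mul_assoc, ← h3, Finset.mul_sum]
    refine Finset.sum_congr rfl (fun z _ => ?_)
    rw [hres z]
    ring
  rw [h2, hk, Helper1.card_eq_card_mul_relIndex hZU] at h1
  have hZ0 : 0 < Nat.card Z := Nat.card_pos
  have h4 : k * (Nat.card Z * Z.relIndex U) = e * Nat.card Z * m := by exact_mod_cast h1
  have h5 : Nat.card Z * (k * Z.relIndex U) = Nat.card Z * (e * m) := by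
    rw [← mul_assoc, mul_comm (Nat.card Z) k, mul_assoc, h4]; ring
  exact Nat.eq_of_mul_eq_mul_left hZ0 h5

/-- `∑ k_ζ² = |H : U|` over the irreducible characters of `U ≥ Z` -/
theorem fr_sum_sq (U : Subgroup H) [Fintype U] (hZU : Z ≤ U) [Fintype (Cfsg.IrrCharacter U)]
    (k : Cfsg.IrrCharacter U → ℕ)
    (hk : ∀ ζ : Cfsg.IrrCharacter U, Cfsg.classInner (fun u : U => χ u) (ζ : U → ℂ) = k ζ) :
    ∑ ζ : Cfsg.IrrCharacter U, (k ζ) ^ 2 = U.index := by
  have hχU : Cfsg.IsCharacter U (fun u : U => χ u) :=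
    Helper80.isCharacter_restrict U (Helper3.isCharacter_of_irr hχ)
  obtain ⟨m, hm, hexp⟩ := Helper80.character_expansion hχU
  have hmk : m = k := by
    funext ζ
    have := (hm ζ).symm.trans (hk ζ)
    exact_mod_cast this
  subst hmk
  have h1 := fr_norm_res Z e hχ hθ he hres U hZU
  have h2 : Cfsg.classInner (fun u : U => χ u) (fun u : U => χ u)
      = ∑ ζ : Cfsg.IrrCharacter U, (m ζ : ℂ) * conj (m ζ : ℂ) := by
    conv_lhs => rw [hexp]
    exact Helper80.classInner_sum_irr _ _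
  rw [h2] at h1
  have h3 : ((∑ ζ : Cfsg.IrrCharacter U, (m ζ) ^ 2 : ℕ) : ℂ) = (U.index : ℂ) := by
    rw [← h1]
    push_cast
    refine Finset.sum_congr rfl (fun ζ _ => ?_)
    rw [Complex.conj_natCast]
    ring
  exact_mod_cast h3

end FR

end Cfsg.Agent.Lib.Helper15
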