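import Mathlib
import Cfsg.Prelude.Def_Characters
import Cfsg.Agent.Lib.Helper15.FRChar
import Cfsg.Agent.Lib.Helper81.CharOps

set_option autoImplicit false
set_option linter.unusedSectionVars false

namespace Cfsg.Agent.Lib.Helper15

open scoped ComplexConjugate
open Cfsg.Agent.Lib

section Act

variable {H : Type*} [Group H] (A : Subgroup H)

theorem conj_mem_of_mem_normalizer {g : H} (hg : g ∈ Subgroup.normalizer (A : Set H)) {a : H}
    (ha : a ∈ A) : g⁻¹ * a * g ∈ A := by
  have := (Subgroup.mem_normalizer_iff.mp (inv_mem hg) a).mp ha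
  simpa using this

/-- conjugation `a ↦ g⁻¹ a g` on `A`, for `g` normalizing `A` -/
def conjEquivN (g : Subgroup.normalizer (A : Set H)) : A ≃* A where
  toFun a := ⟨(g : H)⁻¹ * a * g, conj_mem_of_mem_normalizer A g.2 a.2⟩
  invFun a := ⟨(g : H) * a * (g : H)⁻¹, (Subgroup.mem_normalizer_iff.mp g.2 a).mp a.2⟩
  left_inv a := by apply Subtype.ext; simp [mul_assoc]
  right_inv a := by apply Subtype.ext; simp [mul_assoc]
  map_mul' a b := by apply Subtype.ext; simp [mul_assoc]

theorem conjEquivN_val (g : Subgroup.normalizer (A : Set H)) (a : A) :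
    ((conjEquivN A g a : A) : H) = (g : H)⁻¹ * a * g := rfl

/-- the action of the normalizer of `A` on functions on `A` -/
@[reducible] def conjActN : MulAction (Subgroup.normalizer (A : Set H)) (A → ℂ) where
  smul g f := fun a => f (conjEquivN A g a)
  one_smul f := by
    funext a
    show f (conjEquivN A 1 a) = f a
    congr 1
    apply Subtype.ext
    simp [conjEquivN_val]
  mul_smul g₁ g₂ f := by
    funext a
    show f (conjEquivN A (g₁ * g₂) a) = f (conjEquivN A g₂ (conjEquivN A g₁ a))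
    congr 1
    apply Subtype.ext
    simp [conjEquivN_val, mul_assoc]

theorem conjActN_smul (g : Subgroup.normalizer (A : Set H)) (f : A → ℂ) :
    letI := conjActN A
    g • f = fun a => f (conjEquivN A g a) := rfl

theorem conjActN_irr (g : Subgroup.normalizer (A : Set H)) {ζ : A → ℂ}
    (hζ : Cfsg.IsIrrCharacter A ζ) :
    Cfsg.IsIrrCharacter A (fun a => ζ (conjEquivN A g a)) :=
  Helper81.isIrrCharacter_comp_mulEquiv (conjEquivN A g) hζ

theorem conjActN_inner [Fintype A] {χ : H → ℂ} (hχ : Cfsg.IsClassFunction H χ)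
    (g : Subgroup.normalizer (A : Set H)) (ζ : A → ℂ) :
    Cfsg.classInner (fun a : A => χ a) (fun a => ζ (conjEquivN A g a))
      = Cfsg.classInner (fun a : A => χ a) ζ := by
  have h1 := classInner_comp_equiv' (conjEquivN A g).toEquiv (fun a : A => χ a) ζ
  rw [← h1]
  congr 1
  funext a
  show χ (a : H) = χ ((conjEquivN A g a : A) : H)
  rw [conjEquivN_val]
  have := hχ (a : H) (g : H)⁻¹
  rw [inv_inv] at this
  exact this.symm

/-- elements of `A` act trivially on class functions of `A` -/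
theorem conjActN_self {ζ : A → ℂ} (hζ : Cfsg.IsClassFunction A ζ)
    (g : Subgroup.normalizer (A : Set H)) (hg : (g : H) ∈ A) :
    (fun a => ζ (conjEquivN A g a)) = ζ := by
  funext a
  have h1 := hζ a (⟨(g : H), hg⟩ : A)⁻¹
  rw [inv_inv] at h1
  rw [← h1]
  congr 1

end Act

section Orbit

variable {H : Type*} [Group H] [Fintype H] (Z : Subgroup H) [hZn : Z.Normal] [Fintype Z]
  {χ : H → ℂ} {θ : Z → ℂ} (e : ℕ)
  (hχ : Cfsg.IsIrrCharacter H χ) (hθ : Cfsg.IsIrrCharacter Z θ) (he : e ^ 2 = Z.index)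
  (hres : ∀ z : Z, χ z = (e : ℂ) * θ z)

include hχ hθ he hres

/-- orbit bound: `|N(A) : Stab(ζ₀)| k₀² ≤ |H : A|` -/
theorem fr_orbit_bound (A : Subgroup H) [Fintype A] (hZA : Z ≤ A) {ζ₀ : A → ℂ}
    (hζ₀ : Cfsg.IsIrrCharacter A ζ₀) (k₀ : ℕ)
    (hk₀ : Cfsg.classInner (fun a : A => χ a) ζ₀ = k₀) :
    letI := conjActN A
    (MulAction.stabilizer (Subgroup.normalizer (A : Set H)) ζ₀).index * k₀ ^ 2 ≤ A.index := by
  classical
  let _ := conjActN A
  have : Fintype (Cfsg.IrrCharacter A) := Fintype.ofFinite _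
  have hχA : Cfsg.IsCharacter A (fun a : A => χ a) :=
    Helper80.isCharacter_restrict A (Helper3.isCharacter_of_irr hχ)
  have hk : ∀ ζ : Cfsg.IrrCharacter A, ∃ m : ℕ,
      Cfsg.classInner (fun a : A => χ a) (ζ : A → ℂ) = m :=
    fun ζ => Helper75.classInner_char_irr_nat hχA ζ.2
  choose k hk using hk
  have hsum := fr_sum_sq Z e hχ hθ he hres A hZA k hk
  rw [MulAction.index_stabilizer]
  have horb : ∀ ζ ∈ MulAction.orbit (Subgroup.normalizer (A : Set H)) ζ₀,
      Cfsg.IsIrrCharacter A ζ ∧ Cfsg.classInner (fun a : A => χ a) ζ = k₀ := by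
    rintro ζ ⟨g, rfl⟩
    refine ⟨conjActN_irr A g hζ₀, ?_⟩
    show Cfsg.classInner (fun a : A => χ a) (fun a => ζ₀ (conjEquivN A g a)) = k₀
    rw [conjActN_inner A (Helper3.isClassFunction_of_isCharacter (Helper3.isCharacter_of_irr hχ)) g ζ₀, hk₀]
  set 𝒯 : Finset (Cfsg.IrrCharacter A) := Finset.univ.filter
    (fun ζ => (ζ : A → ℂ) ∈ MulAction.orbit (Subgroup.normalizer (A : Set H)) ζ₀) with h𝒯
  have hcard : (MulAction.orbit (Subgroup.normalizer (A : Set H)) ζ₀).ncard = 𝒯.card := by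
    have h1 : MulAction.orbit (Subgroup.normalizer (A : Set H)) ζ₀
        = Subtype.val '' (𝒯 : Set (Cfsg.IrrCharacter A)) := by
      ext ζ
      constructor
      · intro h
        exact ⟨⟨ζ, (horb ζ h).1⟩, by simp [h𝒯, h], rfl⟩
      · rintro ⟨ζ', h, rfl⟩
        simpa [h𝒯] using h
    rw [h1, Set.ncard_image_of_injective _ Subtype.val_injective, Set.ncard_coe_finset]
  rw [hcard, ← hsum]
  calc 𝒯.card * k₀ ^ 2 = ∑ ζ ∈ 𝒯, k₀ ^ 2 := by simp
    _ = ∑ ζ ∈ 𝒯, (k ζ) ^ 2 := by
        refine Finset.sum_congr rfl (fun ζ hζ => ?_)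
        have h2 : (ζ : A → ℂ) ∈ MulAction.orbit (Subgroup.normalizer (A : Set H)) ζ₀ := by
          simpa [h𝒯] using hζ
        have h3 := (horb _ h2).2
        rw [hk ζ] at h3
        have h4 : k ζ = k₀ := by exact_mod_cast h3
        rw [h4]
    _ ≤ ∑ ζ, (k ζ) ^ 2 := Finset.sum_le_sum_of_subset (Finset.subset_univ _)

end Orbit

end Cfsg.Agent.Lib.Helper15
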