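import Mathlib
import Cfsg.Prelude.Def_Characters
import Cfsg.Agent.Lib.Helper15.FRAct
import Cfsg.Agent.Lib.Helper15.FRGroup

set_option autoImplicit false
set_option linter.unusedSectionVars false

namespace Cfsg.Agent.Lib.Helper15

open scoped ComplexConjugate
open Cfsg.Agent.Lib

section Stab

variable {H : Type*} [Group H] (A : Subgroup H)

/-- stabilizer in `N_H(A)` of a function on `A`, as a subgroup of `H` -/
def frStab (ζ : A → ℂ) : Subgroup H :=
  letI := conjActN A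
  (MulAction.stabilizer (Subgroup.normalizer (A : Set H)) ζ).map
    (Subgroup.normalizer (A : Set H)).subtype

theorem mem_frStab {ζ : A → ℂ} {g : H} :
    g ∈ frStab A ζ ↔ ∃ hg : g ∈ Subgroup.normalizer (A : Set H),
      (fun a => ζ (conjEquivN A ⟨g, hg⟩ a)) = ζ := by
  unfold frStab
  constructor
  · rintro ⟨x, hx, rfl⟩
    exact ⟨x.2, hx⟩
  · rintro ⟨hg, h⟩
    exact ⟨⟨g, hg⟩, h, rfl⟩

theorem frStab_le (ζ : A → ℂ) : frStab A ζ ≤ Subgroup.normalizer (A : Set H) :=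
  Subgroup.map_subtype_le _

theorem le_frStab {ζ : A → ℂ} (hζ : Cfsg.IsClassFunction A ζ) : A ≤ frStab A ζ := by
  intro a ha
  exact (mem_frStab A).mpr ⟨Subgroup.le_normalizer ha,
    conjActN_self A hζ ⟨a, Subgroup.le_normalizer ha⟩ ha⟩

theorem frStab_relIndex (ζ : A → ℂ) :
    letI := conjActN A
    (frStab A ζ).relIndex (Subgroup.normalizer (A : Set H))
      = (MulAction.stabilizer (Subgroup.normalizer (A : Set H)) ζ).index := by
  unfold frStab Subgroup.relIndex Subgroup.subgroupOf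
  rw [Subgroup.comap_map_eq_self_of_injective (Subgroup.subtype_injective _)]

end Stab

section Core

variable {H : Type*} [Group H] [Fintype H] (Z : Subgroup H) [hZn : Z.Normal] [Fintype Z]
  {χ : H → ℂ} {θ : Z → ℂ} (e : ℕ)
  (hχ : Cfsg.IsIrrCharacter H χ) (hθ : Cfsg.IsIrrCharacter Z θ) (he : e ^ 2 = Z.index)
  (hres : ∀ z : Z, χ z = (e : ℂ) * θ z)

include hχ hθ he hres

/-- the core: a constituent `ζ₀` of `χ|_A` whose stabilizer in `S` lies in `K` gives a
subgroup over `K` of index `|S K : K|` -/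
theorem fr_core (K : Subgroup H) [K.Normal] {p : ℕ} (hp : p.Prime) (S A : Subgroup H)
    [Fintype A] (hZA : Z ≤ A) (hA : A = S ⊓ K) {r : ℕ} (hZS : Z.relIndex S = p ^ r)
    (hS : ¬ p ∣ S.index)
    (hfrat : ∀ g : H, ∃ k ∈ K, k * g ∈ Subgroup.normalizer (A : Set H))
    {ζ₀ : A → ℂ} (hζ₀ : Cfsg.IsIrrCharacter A ζ₀)
    (hk₀ : Cfsg.classInner (fun a : A => χ a) ζ₀ ≠ 0)
    (hβ : frStab A ζ₀ ⊓ S ≤ K) :
    ∃ M : Subgroup H, K ≤ M ∧ M.index = K.relIndex S := by
  classical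
  have hAS : A ≤ S := hA ▸ inf_le_left
  have hAK : A ≤ K := hA ▸ inf_le_right
  have hZS' : Z ≤ S := hZA.trans hAS
  have hSN : S ≤ Subgroup.normalizer (A : Set H) := by
    rw [hA]
    exact le_normalizer_inf_normal S K
  have hζcf : Cfsg.IsClassFunction A ζ₀ :=
    Helper3.isClassFunction_of_isCharacter (Helper3.isCharacter_of_irr hζ₀)
  have hASt := le_frStab A hζcf
  have hStN := frStab_le A ζ₀
  have hARS : A.relIndex S = K.relIndex S := by rw [hA, Subgroup.inf_relIndex_left]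
  have h1 : K.relIndex S ∣ p ^ r := by
    rw [← hZS]
    exact Subgroup.relIndex_dvd_of_le_left _ (hZA.trans hAK)
  obtain ⟨n, -, hn⟩ := (Nat.dvd_prime_pow hp).mp h1
  have hAidx : A.index = p ^ n * S.index := by
    rw [← hn, ← hARS]
    exact (Subgroup.relIndex_mul_index hAS).symm
  have he' : e ^ 2 = p ^ r * S.index := by
    rw [he, ← hZS]
    exact (Subgroup.relIndex_mul_index hZS').symm
  have hq0 : 0 < S.index := Nat.pos_of_ne_zero Subgroup.index_ne_zero_of_finite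
  have hχA : Cfsg.IsCharacter A (fun a : A => χ a) :=
    Helper80.isCharacter_restrict A (Helper3.isCharacter_of_irr hχ)
  obtain ⟨k₀, hk₀'⟩ := Helper75.classInner_char_irr_nat hχA hζ₀
  have hk₀ne : k₀ ≠ 0 := by
    rintro rfl
    exact hk₀ (by simpa using hk₀')
  obtain ⟨m, hm⟩ := fr_dvd Z e hχ hθ he hres A hZA hζ₀ k₀ hk₀'
  have h2 : Z.relIndex A ∣ p ^ r := by
    rw [← hZS]
    exact ⟨_, (Subgroup.relIndex_mul_relIndex Z A S hZA hAS).symm⟩
  obtain ⟨j, -, hj⟩ := (Nat.dvd_prime_pow hp).mp h2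
  rw [hj] at hm
  have hcop : Nat.Coprime S.index p := ((Nat.Prime.coprime_iff_not_dvd hp).mpr hS).symm
  have hqk : S.index ∣ k₀ ^ 2 := q_dvd_sq hp hcop he' hm
  have hqle : S.index ≤ k₀ ^ 2 := Nat.le_of_dvd (by positivity) hqk
  have hob := fr_orbit_bound Z e hχ hθ he hres A hZA hζ₀ k₀ hk₀'
  rw [← frStab_relIndex A ζ₀, hAidx] at hob
  have hupper : (frStab A ζ₀).relIndex (Subgroup.normalizer (A : Set H)) ≤ p ^ n := by
    have : (frStab A ζ₀).relIndex (Subgroup.normalizer (A : Set H)) * S.index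
        ≤ p ^ n * S.index := le_trans (Nat.mul_le_mul_left _ hqle) hob
    exact Nat.le_of_mul_le_mul_right this hq0
  have hinf : frStab A ζ₀ ⊓ S = A := by
    apply le_antisymm
    · intro g hg
      rw [hA]
      exact ⟨hg.2, hβ hg⟩
    · exact le_inf hASt hAS
  have hlower : p ^ n ≤ (frStab A ζ₀).relIndex (Subgroup.normalizer (A : Set H)) := by
    have h3 : (frStab A ζ₀).relIndex S = p ^ n := by
      rw [← Subgroup.inf_relIndex_right, hinf, hARS, hn]
    rw [← h3]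
    exact Subgroup.relIndex_le_of_le_right hSN (relIndex_ne_zero_fin _ _)
  have hidx := le_antisymm hupper hlower
  have hcopA : ¬ p ∣ A.relIndex K := by
    rw [hA, Subgroup.inf_relIndex_right]
    intro h
    exact hS (h.trans (relIndex_dvd_index_normal S K))
  obtain ⟨M, hKM, hM⟩ := exists_of_stab_index K A _ (frStab A ζ₀) hAK hASt hStN hfrat hp hcopA
    hidx
  exact ⟨M, hKM, by rw [hM, hn]⟩

/-- in the cyclic case every constituent of `χ|_A` has its stabilizer in `S` inside `K` -/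
theorem fr_beta_cyclic (K : Subgroup H) [K.Normal] {p : ℕ} (hp : p.Prime) (S A : Subgroup H)
    [Fintype A] (hZA : Z ≤ A) (hA : A = S ⊓ K) {r : ℕ} (hZS : Z.relIndex S = p ^ r)
    (hS : ¬ p ∣ S.index)
    (Q : Subgroup (H ⧸ K)) (hQ : IsCyclic Q) (hSQ : S.map (QuotientGroup.mk' K) ≤ Q)
    {ζ : A → ℂ} (hζ : Cfsg.IsIrrCharacter A ζ)
    (hk : Cfsg.classInner (fun a : A => χ a) ζ ≠ 0) :
    frStab A ζ ⊓ S ≤ K := by
  classical
  have hAS : A ≤ S := hA ▸ inf_le_left
  have hAK : A ≤ K := hA ▸ inf_le_right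
  have hZS' : Z ≤ S := hZA.trans hAS
  have hSN : S ≤ Subgroup.normalizer (A : Set H) := by
    rw [hA]
    exact le_normalizer_inf_normal S K
  have hζcf : Cfsg.IsClassFunction A ζ :=
    Helper3.isClassFunction_of_isCharacter (Helper3.isCharacter_of_irr hζ)
  have hASt := le_frStab A hζcf
  have hAT : A ≤ frStab A ζ ⊓ S := le_inf hASt hAS
  have hmemA : ∀ x : H, x ∈ A ↔ x ∈ S ∧ x ∈ K := fun x => by
    rw [hA]
    exact Subgroup.mem_inf
  have hZT : Z ≤ frStab A ζ ⊓ S := hZA.trans hAT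
  have : Fintype ↥(frStab A ζ ⊓ S) := Fintype.ofFinite _
  let f : ↥(frStab A ζ ⊓ S) →* Q :=
    ((QuotientGroup.mk' K).comp (frStab A ζ ⊓ S).subtype).codRestrict Q
      (fun t => hSQ (Subgroup.mem_map_of_mem _ t.2.2))
  have hker : ∀ b : ↥(frStab A ζ ⊓ S), f b = 1 ↔ (b : H) ∈ A := by
    intro b
    rw [← Subtype.coe_inj]
    show ((QuotientGroup.mk' K) (b : H) = ((1 : Q) : H ⧸ K)) ↔ _
    rw [Subgroup.coe_one, QuotientGroup.mk'_apply, QuotientGroup.eq_one_iff]
    exact ⟨fun h => (hmemA _).mpr ⟨b.2.2, h⟩, fun h => hAK h⟩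
  have hinv : ∀ (b : H) (_ : b ∈ frStab A ζ ⊓ S) (a : A) (h : b * a * b⁻¹ ∈ A),
      ζ ⟨b * a * b⁻¹, h⟩ = ζ a := by
    intro b hb a h
    obtain ⟨hbN, hbζ⟩ := (mem_frStab A).mp hb.1
    have h1 := congrFun hbζ ⟨b * a * b⁻¹, h⟩
    rw [← h1]
    congr 1
    apply Subtype.ext
    rw [conjEquivN_val]
    show b⁻¹ * (b * (a : H) * b⁻¹) * b = (a : H)
    group
  obtain ⟨η, hη, hηA⟩ := ext_of_cyclic_hom A (frStab A ζ ⊓ S) hAT f hker ζ hζ hinv
  have hvan := fr_vanish Z e hχ hθ he hres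
  have hχT : Cfsg.IsCharacter ↥(frStab A ζ ⊓ S) (fun t : ↥(frStab A ζ ⊓ S) => χ t) :=
    Helper80.isCharacter_restrict _ (Helper3.isCharacter_of_irr hχ)
  have hχA : Cfsg.IsCharacter A (fun a : A => χ a) :=
    Helper80.isCharacter_restrict A (Helper3.isCharacter_of_irr hχ)
  obtain ⟨kh, hkh⟩ := Helper75.classInner_char_irr_nat hχT hη
  obtain ⟨k, hk'⟩ := Helper75.classInner_char_irr_nat hχA hζ
  have hkne : k ≠ 0 := by
    rintro rfl
    exact hk (by simpa using hk')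
  have e1 := fr_inner_res Z hvan (frStab A ζ ⊓ S) hZT η
  have e2 := fr_inner_res Z hvan A hZA ζ
  have e3 : ∑ z : Z, χ z * conj (η ⟨z, hZT z.2⟩) = ∑ z : Z, χ z * conj (ζ ⟨z, hZA z.2⟩) := by
    refine Finset.sum_congr rfl (fun z _ => ?_)
    rw [← hηA ⟨z, hZA z.2⟩]
  rw [hkh, e3, ← e2, hk'] at e1
  have e4 : kh * Nat.card ↥(frStab A ζ ⊓ S) = k * Nat.card A := by exact_mod_cast e1
  rw [Helper1.card_eq_card_mul_relIndex hAT] at e4
  have e5 : kh * A.relIndex (frStab A ζ ⊓ S) = k := by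
    apply Nat.eq_of_mul_eq_mul_left (Nat.card_pos (α := A))
    rw [← mul_assoc, mul_comm (Nat.card A) kh, mul_assoc, e4]
    ring
  have hkhne : kh ≠ 0 := by
    rintro rfl
    rw [zero_mul] at e5
    exact hkne e5.symm
  obtain ⟨m, hm⟩ := fr_dvd Z e hχ hθ he hres (frStab A ζ ⊓ S) hZT hη kh hkh
  have h2 : Z.relIndex (frStab A ζ ⊓ S) ∣ p ^ r := by
    rw [← hZS]
    exact ⟨_, (Subgroup.relIndex_mul_relIndex Z (frStab A ζ ⊓ S) S hZT inf_le_right).symm⟩
  obtain ⟨j, -, hj⟩ := (Nat.dvd_prime_pow hp).mp h2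
  rw [hj] at hm
  have he' : e ^ 2 = p ^ r * S.index := by
    rw [he, ← hZS]
    exact (Subgroup.relIndex_mul_index hZS').symm
  have hcop : Nat.Coprime S.index p := ((Nat.Prime.coprime_iff_not_dvd hp).mpr hS).symm
  have hqk : S.index ∣ kh ^ 2 := q_dvd_sq hp hcop he' hm
  have hqle : S.index ≤ kh ^ 2 := Nat.le_of_dvd (by positivity) hqk
  have hob := fr_orbit_bound Z e hχ hθ he hres A hZA hζ k hk'
  rw [← frStab_relIndex A ζ] at hob
  have hAidx : A.index = A.relIndex (frStab A ζ ⊓ S) * (frStab A ζ ⊓ S).relIndex S * S.index := by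
    rw [Subgroup.relIndex_mul_relIndex A (frStab A ζ ⊓ S) S hAT inf_le_right,
      Subgroup.relIndex_mul_index hAS]
  have hlower : (frStab A ζ ⊓ S).relIndex S
      ≤ (frStab A ζ).relIndex (Subgroup.normalizer (A : Set H)) := by
    rw [Subgroup.inf_relIndex_right]
    exact Subgroup.relIndex_le_of_le_right hSN (relIndex_ne_zero_fin _ _)
  have hu : 0 < (frStab A ζ ⊓ S).relIndex S := Nat.pos_of_ne_zero (relIndex_ne_zero_fin _ _)
  have ht' : 0 < A.relIndex (frStab A ζ ⊓ S) := Nat.pos_of_ne_zero (relIndex_ne_zero_fin _ _)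
  suffices hrel : A.relIndex (frStab A ζ ⊓ S) = 1 by
    have hTA : frStab A ζ ⊓ S ≤ A := Subgroup.relIndex_eq_one.mp hrel
    exact hTA.trans hAK
  generalize A.relIndex (frStab A ζ ⊓ S) = t' at *
  generalize (frStab A ζ ⊓ S).relIndex S = u at *
  have hineq : u * (kh * t') ^ 2 ≤ t' * u * kh ^ 2 := by
    calc u * (kh * t') ^ 2
        ≤ (frStab A ζ).relIndex (Subgroup.normalizer (A : Set H)) * k ^ 2 := by
          rw [e5]
          exact Nat.mul_le_mul_right _ hlower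
      _ ≤ A.index := hob
      _ = t' * u * S.index := hAidx
      _ ≤ t' * u * kh ^ 2 := Nat.mul_le_mul_left _ hqle
  have hkh0 : 0 < kh := Nat.pos_of_ne_zero hkhne
  have hle1 : t' ≤ 1 := by
    have h3 : (u * kh ^ 2 * t') * t' ≤ (u * kh ^ 2 * t') * 1 := by
      calc (u * kh ^ 2 * t') * t' = u * (kh * t') ^ 2 := by ring
        _ ≤ t' * u * kh ^ 2 := hineq
        _ = (u * kh ^ 2 * t') * 1 := by ring
    exact Nat.le_of_mul_le_mul_left h3 (by positivity)
  exact le_antisymm hle1 ht'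

end Core

end Cfsg.Agent.Lib.Helper15
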