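import Mathlib
import Cfsg.Prelude.Def_Characters
import Cfsg.Agent.Lib.Helper15.FRCore
import Cfsg.Agent.Lib.Helper75.Clifford

set_option autoImplicit false
set_option linter.unusedSectionVars false

namespace Cfsg.Agent.Lib.Helper15

open scoped ComplexConjugate
open Cfsg.Agent.Lib

/-- right-invariant `ℕ`-valued functions: `|L|` divides the sum -/
theorem card_dvd_sum_of_right_inv {G : Type*} [Group G] [Fintype G] (L : Subgroup G)
    (F : G → ℕ) (hF : ∀ l ∈ L, ∀ x, F (x * l) = F x) : Nat.card L ∣ ∑ x, F x := by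
  classical
  have : Fintype (G ⧸ L) := Fintype.ofFinite _
  rw [← Finset.sum_fiberwise (Finset.univ) (fun x : G => (QuotientGroup.mk x : G ⧸ L)) F]
  apply Finset.dvd_sum
  intro q _
  obtain ⟨x₀, rfl⟩ := QuotientGroup.mk_surjective q
  have hconst : ∀ x ∈ Finset.univ.filter
      (fun x : G => (QuotientGroup.mk x : G ⧸ L) = QuotientGroup.mk x₀), F x = F x₀ := by
    intro x hx
    rw [Finset.mem_filter] at hx
    have h1 : x₀⁻¹ * x ∈ L := QuotientGroup.eq.mp hx.2.symm
    have h2 := hF _ h1 x₀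
    rw [mul_inv_cancel_left] at h2
    exact h2
  rw [Finset.sum_congr rfl hconst, Finset.sum_const, smul_eq_mul]
  have hcard : (Finset.univ.filter
      (fun x : G => (QuotientGroup.mk x : G ⧸ L) = QuotientGroup.mk x₀)).card = Nat.card L := by
    have h3 : Finset.univ.filter
        (fun x : G => (QuotientGroup.mk x : G ⧸ L) = QuotientGroup.mk x₀)
        = (Finset.univ : Finset L).image (fun l : L => x₀ * (l : G)) := by
      ext x
      simp only [Finset.mem_filter, Finset.mem_univ, true_and, Finset.mem_image]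
      constructor
      · intro hx
        exact ⟨⟨x₀⁻¹ * x, QuotientGroup.eq.mp hx.symm⟩, by simp⟩
      · rintro ⟨l, rfl⟩
        exact (QuotientGroup.eq.mpr (by simp)).symm
    rw [h3, Finset.card_image_of_injective _ (fun a b h => Subtype.ext (mul_left_cancel h)),
      Finset.card_univ, Nat.card_eq_fintype_card]
  rw [hcard]
  exact dvd_mul_right _ _

/-- left-invariant `ℕ`-valued functions: `|L|` divides the sum -/
theorem card_dvd_sum_of_left_inv {G : Type*} [Group G] [Fintype G] (L : Subgroup G)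
    (F : G → ℕ) (hF : ∀ l ∈ L, ∀ x, F (l * x) = F x) : Nat.card L ∣ ∑ x, F x := by
  have h := card_dvd_sum_of_right_inv L (fun x => F x⁻¹) (fun l hl x => by
    show F (x * l)⁻¹ = F x⁻¹
    rw [mul_inv_rev]
    exact hF _ (L.inv_mem hl) _)
  have h2 : ∑ x : G, F x⁻¹ = ∑ x : G, F x := Equiv.sum_comp (Equiv.inv G) F
  rwa [h2] at h

section Ind

variable {H : Type*} [Group H] [Fintype H] (Z : Subgroup H) [hZn : Z.Normal] [Fintype Z]
  {χ : H → ℂ} {θ : Z → ℂ} (e : ℕ)
  (hχ : Cfsg.IsIrrCharacter H χ) (hθ : Cfsg.IsIrrCharacter Z θ) (he : e ^ 2 = Z.index)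
  (hres : ∀ z : Z, χ z = (e : ℂ) * θ z)

include hχ hθ he hres

/-- the induced case: some constituent of `χ|_A` has its stabilizer in `S` inside `K` -/
theorem fr_beta_induced (K : Subgroup H) [hKn : K.Normal] [Fintype K] {p : ℕ} (hp : p.Prime)
    (S A : Subgroup H) [Fintype A] (hZA : Z ≤ A) (hA : A = S ⊓ K) {n : ℕ}
    (hKS : K.relIndex S = p ^ n) (hS : ¬ p ∣ S.index)
    (φ : K → ℂ) (hφ : Cfsg.IsCharacter K φ) (hind : Cfsg.indFun K φ = χ) :
    ∃ ζ₀ : A → ℂ, Cfsg.IsIrrCharacter A ζ₀ ∧ Cfsg.classInner (fun a : A => χ a) ζ₀ ≠ 0 ∧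
      frStab A ζ₀ ⊓ S ≤ K := by
  classical
  have hAS : A ≤ S := hA ▸ inf_le_left
  have hAK : A ≤ K := hA ▸ inf_le_right
  have hZK : Z ≤ K := hZA.trans hAK
  have hvan := fr_vanish Z e hχ hθ he hres
  have hχcf : Cfsg.IsClassFunction H χ :=
    Helper3.isClassFunction_of_isCharacter (Helper3.isCharacter_of_irr hχ)
  have hφcf : Cfsg.IsClassFunction K φ := Helper3.isClassFunction_of_isCharacter hφ
  have : Fintype (Cfsg.IrrCharacter A) := Fintype.ofFinite _
  -- (a) `[χ|_K, φ] = 1`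
  have h1 : Cfsg.classInner (fun k : K => χ k) φ = 1 := by
    have hf := Helper80.frobenius_reciprocity (H := K) φ χ hχcf
    rw [hind, Helper3.classInner_irr_self hχ] at hf
    rw [← Helper80.classInner_conj_symm, ← hf, map_one]
  have e1 := fr_inner_res Z hvan K hZK φ
  rw [h1, one_mul] at e1
  -- (b) expansion of `φ|_A`
  have hφA : Cfsg.IsCharacter A (fun a : A => φ ⟨a, hAK a.2⟩) :=
    Helper25.isCharacter_comp_monoidHom (Subgroup.inclusion hAK) hφ
  obtain ⟨b, hb, hexp⟩ := Helper80.character_expansion hφA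
  have hχA : Cfsg.IsCharacter A (fun a : A => χ a) :=
    Helper80.isCharacter_restrict A (Helper3.isCharacter_of_irr hχ)
  have hk : ∀ ζ : Cfsg.IrrCharacter A, ∃ m : ℕ,
      Cfsg.classInner (fun a : A => χ a) (ζ : A → ℂ) = m :=
    fun ζ => Helper75.classInner_char_irr_nat hχA ζ.2
  choose k hk using hk
  have e2 : ∀ ζ : Cfsg.IrrCharacter A, (k ζ : ℂ) * (Nat.card A : ℂ)
      = ∑ z : Z, χ z * conj ((ζ : A → ℂ) ⟨z, hZA z.2⟩) := fun ζ => by
    rw [← hk ζ]
    exact fr_inner_res Z hvan A hZA ζ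
  have e3 : ∑ z : Z, χ z * conj (φ ⟨z, hZK z.2⟩)
      = ∑ ζ : Cfsg.IrrCharacter A, (b ζ : ℂ) * ((k ζ : ℂ) * (Nat.card A : ℂ)) := by
    have h2 : ∀ z : Z, φ ⟨z, hZK z.2⟩
        = ∑ ζ : Cfsg.IrrCharacter A, (b ζ : ℂ) * (ζ : A → ℂ) ⟨z, hZA z.2⟩ := by
      intro z
      have h3 := congrFun hexp ⟨z, hZA z.2⟩
      simp only [Finset.sum_apply, Pi.smul_apply, smul_eq_mul] at h3
      exact h3
    simp_rw [h2, map_sum, Finset.mul_sum, map_mul, Complex.conj_natCast]
    rw [Finset.sum_comm]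
    refine Finset.sum_congr rfl (fun ζ _ => ?_)
    rw [e2 ζ, Finset.mul_sum]
    refine Finset.sum_congr rfl (fun z _ => ?_)
    ring
  rw [e3] at e1
  have e4 : Nat.card K = (∑ ζ : Cfsg.IrrCharacter A, b ζ * k ζ) * Nat.card A := by
    have h4 : (Nat.card K : ℂ) = ((∑ ζ : Cfsg.IrrCharacter A, b ζ * k ζ) * Nat.card A : ℕ) := by
      rw [e1]
      push_cast
      rw [Finset.sum_mul]
      refine Finset.sum_congr rfl (fun ζ _ => by ring)
    exact_mod_cast h4
  have e5 : A.relIndex K = ∑ ζ : Cfsg.IrrCharacter A, b ζ * k ζ := by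
    have h5 := Helper1.card_eq_card_mul_relIndex hAK
    rw [h5] at e4
    apply Nat.eq_of_mul_eq_mul_left (Nat.card_pos (α := A))
    rw [e4]
    ring
  have hcopA : ¬ p ∣ A.relIndex K := by
    rw [hA, Subgroup.inf_relIndex_right]
    intro h
    exact hS (h.trans (relIndex_dvd_index_normal S K))
  have hex : ∃ ζ : Cfsg.IrrCharacter A, ¬ p ∣ k ζ := by
    by_contra hno
    push Not at hno
    apply hcopA
    rw [e5]
    exact Finset.dvd_sum (fun ζ _ => Dvd.dvd.mul_left (hno ζ) _)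
  obtain ⟨ζ₀, hζ₀p⟩ := hex
  refine ⟨ζ₀, ζ₀.2, ?_, ?_⟩
  · rw [hk ζ₀]
    intro h0
    have h6 : k ζ₀ = 0 := by exact_mod_cast h0
    rw [h6] at hζ₀p
    exact hζ₀p (dvd_zero p)
  · -- (c)
    intro s hs
    by_contra hsK
    apply hζ₀p
    obtain ⟨hsN, hsζ⟩ := (mem_frStab A).mp hs.1
    have hψ : ∀ x : H, Cfsg.IsCharacter A
        (fun a : A => Helper75.conjChar K φ x ⟨a, hAK a.2⟩) := fun x =>
      Helper25.isCharacter_comp_monoidHom (Subgroup.inclusion hAK)
        (Helper75.isCharacter_conjChar K hφ x)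
    have hF : ∀ x : H, ∃ m : ℕ, Cfsg.classInner
        (fun a : A => Helper75.conjChar K φ x ⟨a, hAK a.2⟩) (ζ₀ : A → ℂ) = m :=
      fun x => Helper75.classInner_char_irr_nat (hψ x) ζ₀.2
    choose F hF using hF
    have hsumF : k ζ₀ * Nat.card K = ∑ x : H, F x := by
      have hres' := Helper75.indFun_res K φ
      rw [hind] at hres'
      have hχAeq : (fun a : A => χ a) = (Nat.card K : ℂ)⁻¹ •
          ∑ x : H, (fun a : A => Helper75.conjChar K φ x ⟨a, hAK a.2⟩) := by
        funext a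
        have h7 := congrFun hres' ⟨a, hAK a.2⟩
        simp only [Pi.smul_apply, Finset.sum_apply, smul_eq_mul] at h7 ⊢
        exact h7
      have h8 : (k ζ₀ : ℂ) = (Nat.card K : ℂ)⁻¹ * ∑ x : H, (F x : ℂ) := by
        rw [← hk ζ₀, hχAeq, Helper80.classInner_smul_left, Helper80.classInner_sum_left]
        congr 1
        exact Finset.sum_congr rfl (fun x _ => hF x)
      have hKne : (Nat.card K : ℂ) ≠ 0 := by exact_mod_cast (Nat.card_pos (α := K)).ne'
      have h9 : (k ζ₀ : ℂ) * (Nat.card K : ℂ) = ∑ x : H, (F x : ℂ) := by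
        rw [h8, mul_comm, ← mul_assoc, mul_inv_cancel₀ hKne, one_mul]
      exact_mod_cast h9
    -- invariance
    have hFK : ∀ x : H, ∀ c ∈ K, F (x * c) = F x := by
      intro x c hc
      have h10 : Helper75.conjChar K φ (x * c) = Helper75.conjChar K φ x := by
        rw [Helper75.conjChar_mul, Helper75.conjChar_of_mem K hφcf hc]
      have h11 := hF (x * c)
      rw [h10, hF x] at h11
      exact_mod_cast h11.symm
    have hFK' : ∀ c ∈ K, ∀ x : H, F (c * x) = F x := by
      intro c hc x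
      have h12 : c * x = x * (x⁻¹ * c * x) := by group
      rw [h12]
      apply hFK
      have := hKn.conj_mem c hc x⁻¹
      rwa [inv_inv] at this
    have hFs : ∀ x : H, F (s * x) = F x := by
      intro x
      have h13 : (fun a : A => Helper75.conjChar K φ (s * x) ⟨a, hAK a.2⟩)
          = fun a : A => (fun a' : A => Helper75.conjChar K φ x ⟨a', hAK a'.2⟩)
              (conjEquivN A ⟨s, hsN⟩ a) := by
        funext a
        rw [Helper75.conjChar_mul]
        show Helper75.conjChar K (Helper75.conjChar K φ x) s ⟨a, hAK a.2⟩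
          = Helper75.conjChar K φ x ⟨(conjEquivN A ⟨s, hsN⟩ a : A), _⟩
        rw [Helper75.conjChar_val K _ s ⟨a, hAK a.2⟩
          (hAK (conj_mem_of_mem_normalizer A hsN a.2))]
        rfl
      have h14 := hF (s * x)
      rw [h13] at h14
      have h15 : (ζ₀ : A → ℂ) = fun a => (ζ₀ : A → ℂ) (conjEquivN A ⟨s, hsN⟩ a) := hsζ.symm
      have h16 : Cfsg.classInner
          (fun a : A => (fun a' : A => Helper75.conjChar K φ x ⟨a', hAK a'.2⟩)
              (conjEquivN A ⟨s, hsN⟩ a))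
          (fun a : A => (ζ₀ : A → ℂ) (conjEquivN A ⟨s, hsN⟩ a))
          = Cfsg.classInner (fun a' : A => Helper75.conjChar K φ x ⟨a', hAK a'.2⟩)
              (ζ₀ : A → ℂ) :=
        classInner_comp_equiv' (conjEquivN A ⟨s, hsN⟩).toEquiv
          (fun a' : A => Helper75.conjChar K φ x ⟨a', hAK a'.2⟩) (ζ₀ : A → ℂ)
      rw [h15, h16, hF x] at h14
      exact_mod_cast h14.symm
    let Inv : Subgroup H :=
      { carrier := {l | ∀ x, F (l * x) = F x}
        mul_mem' := fun {a b} ha hb x => by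
          show F (a * b * x) = F x
          rw [mul_assoc, ha, hb]
        one_mem' := fun x => by
          show F (1 * x) = F x
          rw [one_mul]
        inv_mem' := fun {a} ha x => by
          show F (a⁻¹ * x) = F x
          have := ha (a⁻¹ * x)
          rw [mul_inv_cancel_left] at this
          exact this.symm }
    have hKInv : K ≤ Inv := fun c hc => hFK' c hc
    have hsInv : s ∈ Inv := hFs
    have hdvd := card_dvd_sum_of_left_inv Inv F (fun l hl x => hl x)
    rw [← hsumF, Helper1.card_eq_card_mul_relIndex hKInv, mul_comm (k ζ₀)] at hdvd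
    have hdvd2 : K.relIndex Inv ∣ k ζ₀ :=
      (Nat.mul_dvd_mul_iff_left (Nat.card_pos (α := K))).mp hdvd
    refine Dvd.dvd.trans ?_ hdvd2
    -- `p ∣ |Inv : K|`
    have hL : K ⊔ Subgroup.zpowers s ≤ Inv := sup_le hKInv (by
      rw [Subgroup.zpowers_le]
      exact hsInv)
    have h16 : K.relIndex (K ⊔ Subgroup.zpowers s) ∣ K.relIndex Inv :=
      ⟨_, (Subgroup.relIndex_mul_relIndex K (K ⊔ Subgroup.zpowers s) Inv le_sup_left hL).symm⟩
    refine Dvd.dvd.trans ?_ h16
    have h17 : K.relIndex (K ⊔ Subgroup.zpowers s) ∣ p ^ n := by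
      rw [← hKS, ← Subgroup.relIndex_sup_left S K]
      have hle : K ⊔ Subgroup.zpowers s ≤ K ⊔ S := sup_le_sup_left (by
        rw [Subgroup.zpowers_le]
        exact hs.2) K
      exact ⟨_, (Subgroup.relIndex_mul_relIndex K (K ⊔ Subgroup.zpowers s) (K ⊔ S)
        le_sup_left hle).symm⟩
    obtain ⟨j, -, hj⟩ := (Nat.dvd_prime_pow hp).mp h17
    rcases Nat.eq_zero_or_pos j with rfl | hjpos
    · exfalso
      rw [pow_zero] at hj
      have h18 : K ⊔ Subgroup.zpowers s ≤ K := Subgroup.relIndex_eq_one.mp hj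
      exact hsK (h18 (Subgroup.mem_sup_right (Subgroup.mem_zpowers s)))
    · rw [hj]
      exact dvd_pow_self p hjpos.ne'

end Ind

end Cfsg.Agent.Lib.Helper15
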