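import Mathlib
import Cfsg.Prelude.Def_Characters

set_option autoImplicit false

/-!
Permutation characters: `Cfsg.indFun U (fun _ => 1)` counts fixed points on an orbit with
point stabilizer `U`.
-/

namespace Cfsg.Agent.Lib.Helper15

open Cfsg

theorem extendByZero_one_apply {G : Type*} [Group G] (U : Subgroup G) (y : G)
    [Decidable (y ∈ U)] :
    Cfsg.extendByZero U (fun _ => (1 : ℂ)) y = if y ∈ U then 1 else 0 := by
  unfold Cfsg.extendByZero
  by_cases hy : y ∈ U
  · rw [if_pos hy]
    have : y = ((⟨y, hy⟩ : U) : G) := rfl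
    rw [this, Subtype.val_injective.extend_apply]
  · rw [if_neg hy, Function.extend_apply' _ _ _ (by rintro ⟨z, hz⟩; exact hy (hz ▸ z.2))]
    rfl

theorem indFun_one_apply {G : Type*} [Group G] [Fintype G] (U : Subgroup G) (g : G)
    [DecidablePred (fun x : G => x⁻¹ * g * x ∈ U)] :
    Cfsg.indFun U (fun _ => (1 : ℂ)) g =
      (Nat.card U : ℂ)⁻¹ * ((Finset.univ.filter (fun x : G => x⁻¹ * g * x ∈ U)).card : ℂ) := by
  classical
  unfold Cfsg.indFun
  congr 1
  simp only [extendByZero_one_apply]
  rw [Finset.sum_boole]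

/-- `indFun U 1` counts the fixed points of `g` on an orbit whose point stabilizer is `U`. -/
theorem indFun_one_eq_card_fixed_orbit {G : Type*} [Group G] [Fintype G] {Ω : Type*}
    [MulAction G Ω] [Fintype Ω] [DecidableEq Ω] (ω₀ : Ω) (U : Subgroup G)
    (hU : ∀ x : G, x • ω₀ = ω₀ ↔ x ∈ U) (g : G)
    [DecidablePred (fun ω : Ω => ω ∈ MulAction.orbit G ω₀ ∧ g • ω = ω)] :
    Cfsg.indFun U (fun _ => (1 : ℂ)) g =
      ((Finset.univ.filter (fun ω : Ω => ω ∈ MulAction.orbit G ω₀ ∧ g • ω = ω)).card : ℂ) := by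
  classical
  rw [indFun_one_apply]
  have hmaps : Set.MapsTo (fun x : G => x • ω₀)
      ((Finset.univ.filter (fun x : G => x⁻¹ * g * x ∈ U) : Finset G) : Set G)
      ((Finset.univ.filter (fun ω : Ω => ω ∈ MulAction.orbit G ω₀ ∧ g • ω = ω) : Finset Ω) : Set Ω) := by
    intro x hx
    simp only [Finset.coe_filter, Finset.mem_univ, true_and, Set.mem_ofPred_eq] at hx ⊢
    refine ⟨MulAction.mem_orbit ω₀ x, ?_⟩
    rw [← hU, mul_smul, mul_smul, inv_smul_eq_iff] at hx
    exact hx
  rw [Finset.card_eq_sum_card_fiberwise hmaps]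
  have hfib : ∀ ω ∈ Finset.univ.filter (fun ω : Ω => ω ∈ MulAction.orbit G ω₀ ∧ g • ω = ω),
      ((Finset.univ.filter (fun x : G => x⁻¹ * g * x ∈ U)).filter (fun x => x • ω₀ = ω)).card =
        Nat.card U := by
    intro ω hω
    simp only [Finset.mem_filter, Finset.mem_univ, true_and] at hω
    obtain ⟨⟨y, hy⟩, hgω⟩ := hω
    have hy' : y • ω₀ = ω := hy
    have e : (Finset.univ.filter (fun x : G => x⁻¹ * g * x ∈ U)).filter (fun x => x • ω₀ = ω) =
        (Finset.univ.filter (fun s : G => s ∈ U)).image (fun s => y * s) := by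
      ext x
      simp only [Finset.mem_filter, Finset.mem_univ, true_and, Finset.mem_image]
      constructor
      · rintro ⟨-, hx⟩
        refine ⟨y⁻¹ * x, ?_, by group⟩
        rw [← hU, mul_smul, hx, ← hy', inv_smul_smul]
      · rintro ⟨s, hs, rfl⟩
        have hs' : s • ω₀ = ω₀ := (hU s).mpr hs
        have h2 : (y * s) • ω₀ = ω := by rw [mul_smul, hs', hy']
        refine ⟨?_, h2⟩
        rw [← hU, mul_smul, mul_smul, inv_smul_eq_iff, h2, hgω]
    rw [e, Finset.card_image_of_injective _ (mul_right_injective y), Nat.card_eq_fintype_card,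
      Fintype.card_subtype]
  rw [Finset.sum_congr rfl hfib, Finset.sum_const, smul_eq_mul, Nat.cast_mul, ← mul_assoc,
    mul_comm _ (Nat.card U : ℂ), ← mul_assoc, mul_inv_cancel₀, one_mul]
  have : 0 < Nat.card U := Nat.card_pos
  exact_mod_cast this.ne'

/-- `indFun H 1` counts the fixed points on the coset space. -/
theorem indFun_one_eq_card_fixed_quotient {G : Type*} [Group G] [Fintype G] (H : Subgroup G)
    (g : G) [Fintype (G ⧸ H)] [DecidablePred (fun q : G ⧸ H => g • q = q)] :
    Cfsg.indFun H (fun _ => (1 : ℂ)) g =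
      ((Finset.univ.filter (fun q : G ⧸ H => g • q = q)).card : ℂ) := by
  classical
  rw [indFun_one_eq_card_fixed_orbit ((1 : G) : G ⧸ H) H _ g]
  · congr 2
    ext q
    simp only [Finset.mem_filter, Finset.mem_univ, true_and, and_iff_right_iff_imp]
    intro _
    induction q using QuotientGroup.induction_on with
    | H x =>
      refine ⟨x, ?_⟩
      show x • ((1 : G) : G ⧸ H) = (x : G ⧸ H)
      rw [MulAction.Quotient.smul_mk]; simp
  · intro x
    rw [MulAction.Quotient.smul_mk, QuotientGroup.eq]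
    simp

/-- The number of fixed points of `g` on a finite `G`-set is the sum over the orbits of the
permutation characters of the stabilizers of chosen orbit representatives. -/
theorem card_fixed_eq_sum_indFun {G : Type*} [Group G] [Fintype G] {Ω : Type*}
    [MulAction G Ω] [Fintype Ω] [DecidableEq Ω]
    [Fintype (MulAction.orbitRel.Quotient G Ω)]
    (rep : MulAction.orbitRel.Quotient G Ω → Ω) (hrep : ∀ q, Quotient.mk'' (rep q) = q) (g : G)
    [DecidablePred (fun ω : Ω => g • ω = ω)] :
    ((Finset.univ.filter (fun ω : Ω => g • ω = ω)).card : ℂ) =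
      ∑ q : MulAction.orbitRel.Quotient G Ω,
        Cfsg.indFun (MulAction.stabilizer G (rep q)) (fun _ => (1 : ℂ)) g := by
  classical
  have hmaps : Set.MapsTo (fun ω : Ω => (Quotient.mk'' ω : MulAction.orbitRel.Quotient G Ω))
      ((Finset.univ.filter (fun ω : Ω => g • ω = ω) : Finset Ω) : Set Ω)
      ((Finset.univ : Finset (MulAction.orbitRel.Quotient G Ω)) : Set _) := by
    intro ω _
    simp
  rw [Finset.card_eq_sum_card_fiberwise hmaps, Nat.cast_sum]
  apply Finset.sum_congr rfl
  intro q _
  rw [indFun_one_eq_card_fixed_orbit (rep q) (MulAction.stabilizer G (rep q))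
    (fun x => MulAction.mem_stabilizer_iff.symm) g]
  congr 2
  ext ω
  simp only [Finset.mem_filter, Finset.mem_univ, true_and]
  rw [and_comm]
  apply and_congr_left
  intro _
  rw [← MulAction.orbitRel_apply, ← Quotient.eq'', hrep]

end Cfsg.Agent.Lib.Helper15
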